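import Cfsg.Agent.H790.EP.Lat8

/-!
# Certificates for two elements of the Weyl group of type `E₈` (helper790, for S4929)

`w = (∏ w10)^3` (`Φ₁₀(w) = 0`) and `w = (∏ w12)^2` (`Φ₁₂(w) = 0`): at most seven involutions of the Weyl group commute
with `w`.
-/

set_option autoImplicit false
set_option maxRecDepth 100000

namespace Cfsg.Agent.H790.EP.Data8

open Cfsg Cfsg.Lie Cfsg.Lie.ChevalleyDatum
open Cfsg.Agent.ChevalleyStructure.CoxeterGeomTypes Cfsg.Agent.Nodes.RGDChev Cfsg.Agent.H130.WeylCk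
  Cfsg.Agent.H130.WeylTab Cfsg.Agent.H130.PolyL Cfsg.Agent.H790.EP.Lat8

/-- the roots of `E₈`, as lists -/
def RL : List (List ℤ) := (List.range 240).map fun r => List.ofFn (vec chevE8 8 r)

/-- the words -/
def w10 : List (Fin 8) := [0, 1, 2, 3, 4, 5, 6, 7]

def w12 : List (Fin 8) := [5, 7, 4, 0, 2, 3, 6, 1, 2, 7, 4, 2, 6, 3]

theorem length_RL : ∀ x ∈ RL, x.length = 8 := by
  intro x hx
  obtain ⟨r, -, rfl⟩ := List.mem_map.1 hx
  exact List.length_ofFn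

/-- the linear conditions -/
def ra10 : List (List ℤ) := [[0, -1, 1, 1, -3, 2, 0, 0], [-2, 1, 1, -1, 1, 0, -1, 0], [-2, 1, 1, -1, 1, 0, -1, 0]]

def rb10 : List (List ℤ) := [[1, 2, 0, -3, 2, 0, 0, 0], [1, -2, 0, 1, 0, -1, 0, 1], [1, -2, 0, 1, 0, -1, 0, 1]]

def pq10 : List (List ℤ × List ℤ) := [([0, 0, 0, 0, 0, -1, 2, -1], [0, 0, 0, 0, 0, 0, -1, 2]),
  ([0, -1, -1, 2, -1, 0, 0, 0], [0, -1, 1, 0, -1, 1, 0, 0]),
  ([0, 1, -1, 0, 0, 1, -1, 0], [-1, 0, 1, -1, 1, 0, 0, -1]), ([-1, 1, 1, -1, 0, 0, 1, -1], [-1, 1, 0, 0, 0, 0, -1, 1])]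

def T10 : List (ℕ × ℤ) := [(0, -1), (3, 0), (6, 0), (9, -1)]

def ra12 : List (List ℤ) := [[-1, 0, 1, 0, -1, 0, 1, 0], [-2, 0, 2, -2, 2, 0, -1, 0], [-2, 0, 2, 0, -2, 0, 2, 0]]

def rb12 : List (List ℤ) := [[1, 1, -1, 0, 0, 0, 0, -1], [2, -2, -2, 2, 0, -1, 0, 1], [2, 2, -2, 0, 0, 0, 0, -2]]

def pq12 : List (List ℤ × List ℤ) := [([0, 0, 0, 0, 0, -1, 2, -1], [0, 0, 0, 0, 0, 0, -1, 2]),
  ([-1, -1, 1, 0, 1, -1, 0, 0], [-1, 1, 0, 0, -1, 1, 0, 0]),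
  ([-1, 1, 1, -1, 0, 0, 1, -1], [-1, 0, 1, -1, 1, 0, -1, 1]), ([-1, -1, 1, 0, 0, 0, 0, 1], [-1, 0, 1, 0, -1, 0, 1, 0])]

def T12 : List (ℕ × ℤ) := [(0, -1), (2, 0), (4, -1), (6, 1)]

theorem ra10_eq : ra10 = rows1 alE8 w10 3 (bas 8 7) := by decide +kernel
theorem rb10_eq : rb10 = rows1 alE8 w10 3 (bas 8 6) := by decide +kernel
theorem pq10_eq : pq10 = rows2 alE8 w10 3 (bas 8 7) (bas 8 6) := by decide +kernel
theorem T10_eq : T10 = vals alE8 w10 3 (bas 8 7) (bas 8 6) := by decide +kernel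
theorem ra12_eq : ra12 = rows1 alE8 w12 2 (bas 8 7) := by decide +kernel
theorem rb12_eq : rb12 = rows1 alE8 w12 2 (bas 8 6) := by decide +kernel
theorem pq12_eq : pq12 = rows2 alE8 w12 2 (bas 8 7) (bas 8 6) := by decide +kernel
theorem T12_eq : T12 = vals alE8 w12 2 (bas 8 7) (bas 8 6) := by decide +kernel

theorem p10 : (prs alE8 w10 RL ra10 rb10 pq10 T10 (bas 8 7) (bas 8 6)).length < 8 := by decide +kernel

theorem p12 : (prs alE8 w12 RL ra12 rb12 pq12 T12 (bas 8 7) (bas 8 6)).length < 8 := by decide +kernel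

/-- coordinates of the fundamental roots -/
def c10 : List (List ℤ) := [[-1, 0, -1, 0], [-1, 0, -1, 1], [0, 0, 0, 0], [0, 0, 0, 0], [1, -1, 1, -1], [0, 1, 0, 0],
  [0, 0, 0, 0], [1, 0, 0, 0]]

def d10 : List (List ℤ) := [[-1, 1, 0, 1], [-1, 1, -1, 1], [-1, 0, -1, 1], [1, -1, 1, -1], [0, 0, 0, 0],
  [0, 0, 0, -1], [1, 0, 0, 0], [0, 0, 0, 0]]

def c12 : List (List ℤ) := [[0, -1, 0, 0], [1, 0, 0, 0], [0, -1, 0, 1], [0, 1, -1, 0], [0, 0, 1, -1], [-1, 0, 0, 0],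
  [0, 0, 0, 0], [1, 0, 0, 0]]

def d12 : List (List ℤ) := [[0, -1, 0, 1], [1, 0, -1, 1], [0, 0, -1, 0], [-1, 1, 1, -1], [1, 0, 0, 0],
  [-1, -1, 0, 0], [1, 0, 0, 0], [0, 0, 0, 0]]

theorem cd10 : ∀ j : Fin 8, bas 8 j = addV (horner alE8 w10 3 (bas 8 7) (c10.getD j []))
    (horner alE8 w10 3 (bas 8 6) (d10.getD j [])) := by decide +kernel

theorem cd12 : ∀ j : Fin 8, bas 8 j = addV (horner alE8 w12 2 (bas 8 7) (c12.getD j []))
    (horner alE8 w12 2 (bas 8 6) (d12.getD j [])) := by decide +kernel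

theorem phi10 : ∀ j : Fin 8, horner alE8 w10 3 (bas 8 j) [1, -1, 1, -1, 1] = List.replicate 8 0 := by
  decide +kernel

theorem phi12 : ∀ j : Fin 8, horner alE8 w12 2 (bas 8 j) [1, 0, -1, 0, 1] = List.replicate 8 0 := by
  decide +kernel

/-- the dual functionals -/
theorem dual10 : ∀ m : Fin 4,
    dot [0, 1, 0, 0, -1, 0, 0, 0] (acn alE8 w10 (3 * m) (bas 8 7)) = (if m = 3 then 1 else 0) ∧
    dot [1, 1, 1, -1, 0, -1, 0, 0] (acn alE8 w10 (3 * m) (bas 8 7)) = 0 ∧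
    dot [1, 1, 1, -1, 0, -1, 0, 0] (acn alE8 w10 (3 * m) (bas 8 6)) = (if m = 3 then 1 else 0) := by
  decide +kernel

theorem dual12 : ∀ m : Fin 4,
    dot [0, 0, 1, 0, -1, 0, 0, 0] (acn alE8 w12 (2 * m) (bas 8 7)) = (if m = 3 then 1 else 0) ∧
    dot [1, 1, 0, -1, 0, 0, 0, 0] (acn alE8 w12 (2 * m) (bas 8 7)) = 0 ∧
    dot [1, 1, 0, -1, 0, 0, 0, 0] (acn alE8 w12 (2 * m) (bas 8 6)) = (if m = 3 then 1 else 0) := by
  decide +kernel

/-- the Cartan matrix is symmetric -/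
theorem symm8 : ∀ i j : Fin 8, cartanOf chevE8 8 i j = cartanOf chevE8 8 j i := by decide +kernel

theorem diag8 : ∀ i : Fin 8, cartanOf chevE8 8 i i = 2 := by decide +kernel

theorem tab8 : (chevE8.cartanSR.toList.all fun row => row.toList.all fun c =>
    decide (-2 ≤ c) && decide (c ≤ 2)) = true := by
  decide +kernel

theorem getD_mem {α : Type*} (a : Array α) (i : ℕ) (d : α) : a.getD i d ∈ a.toList ∨ a.getD i d = d := by
  by_cases h : i < a.size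
  · left
    rw [Array.getD_eq_getD_getElem?, Array.getElem?_eq_getElem h]
    exact Array.mem_toList_iff.2 (Array.getElem_mem h)
  · right
    rw [Array.getD_eq_getD_getElem?, Array.getElem?_eq_none (by omega)]
    rfl

/-- the Cartan integers are bounded -/
theorem bound8 (i r : ℕ) : |chevE8.cartan i r| ≤ 2 := by
  unfold ChevalleyDatum.cartan
  rcases getD_mem chevE8.cartanSR i #[] with h | h
  · rcases getD_mem (chevE8.cartanSR.getD i #[]) r 0 with h' | h'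
    · have h1 := List.all_eq_true.1 (List.all_eq_true.1 tab8 _ h) _ h'
      rw [Bool.and_eq_true, decide_eq_true_eq, decide_eq_true_eq] at h1
      exact abs_le.2 h1
    · rw [h']; norm_num
  · rw [h]
    rcases getD_mem (#[] : Array ℤ) r 0 with h' | h'
    · simp at h'
    · rw [h']; norm_num

/-- `-1` -/
theorem neg8 : ∀ i : Fin 8, acn alE8 w10 15 (bas 8 i) = (bas 8 i).map (fun a => -1 * a) := by
  decide +kernel

end Cfsg.Agent.H790.EP.Data8
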