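import Cfsg.Agent.H720.RowsNeg
import Cfsg.Agent.ChevalleyStructure.CoxeterGeom

/-!
# Computations in the root lattice of a simply laced type (helper790, for S4929)

* `bf A` : the bilinear form of the Cartan matrix, invariant under the Weyl group if `A` is symmetric;
* `gram` : the values `B(α, w^i α)` if `Φ(w) = 0`, `Φ` of degree four;
* `exists_eq` : a decidable certificate bounding the number of involutions commuting with an element of the
  Weyl group.
-/

set_option autoImplicit false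
set_option linter.unusedSectionVars false

namespace Cfsg.Agent.H790.EP.Lat8

open CoxeterSystem Cfsg Cfsg.Lie Cfsg.Lie.ChevalleyDatum
open Cfsg.Agent.ChevalleyStructure Cfsg.Agent.ChevalleyStructure.CoxeterGeom
  Cfsg.Agent.Tits.Roots Cfsg.Agent.Tits.Core Cfsg.Agent.Nodes.RGDChev
  Cfsg.Agent.H130.WeylCk Cfsg.Agent.H130.WeylTab Cfsg.Agent.H130.PolyL

section Form

variable {l : ℕ} (A : Fin l → Fin l → ℤ)

/-- the bilinear form of the Cartan matrix -/
def bf : (Fin l → ℤ) →ₗ[ℤ] (Fin l → ℤ) →ₗ[ℤ] ℤ :=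
  LinearMap.mk₂ ℤ (fun x y => ∑ i, x i * pairing A i y)
    (fun x x' y => by
      rw [← Finset.sum_add_distrib]
      exact Finset.sum_congr rfl fun i _ => by rw [Pi.add_apply, add_mul])
    (fun c x y => by
      rw [Finset.smul_sum]
      exact Finset.sum_congr rfl fun i _ => by rw [Pi.smul_apply, smul_eq_mul, smul_eq_mul, mul_assoc])
    (fun x y y' => by
      rw [← Finset.sum_add_distrib]
      refine Finset.sum_congr rfl fun i _ => ?_
      rw [← mul_add]
      congr 1
      unfold pairing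
      rw [← Finset.sum_add_distrib]
      exact Finset.sum_congr rfl fun j _ => by rw [Pi.add_apply, mul_add])
    (fun c x y => by
      rw [Finset.smul_sum]
      refine Finset.sum_congr rfl fun i _ => ?_
      rw [smul_eq_mul, mul_left_comm]
      congr 1
      unfold pairing
      rw [Finset.mul_sum]
      exact Finset.sum_congr rfl fun j _ => by rw [Pi.smul_apply, smul_eq_mul, mul_left_comm])

variable {A}

theorem bf_apply (x y : Fin l → ℤ) : bf A x y = ∑ i, x i * pairing A i y := rfl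

theorem bf_single_left (i : Fin l) (c : ℤ) (y : Fin l → ℤ) : bf A (Pi.single i c) y = c * pairing A i y := by
  rw [bf_apply, Finset.sum_eq_single i]
  · rw [Pi.single_eq_same]
  · intro j _ hj
    rw [Pi.single_eq_of_ne hj, zero_mul]
  · intro h
    exact absurd (Finset.mem_univ i) h

theorem bf_comm (hs : ∀ i j, A i j = A j i) (x y : Fin l → ℤ) : bf A x y = bf A y x := by
  rw [bf_apply, bf_apply]
  unfold pairing
  simp_rw [Finset.mul_sum]
  rw [Finset.sum_comm]
  refine Finset.sum_congr rfl fun j _ => Finset.sum_congr rfl fun i _ => ?_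
  rw [hs i j]
  ring

theorem bf_refl (hs : ∀ i j, A i j = A j i) (h2 : ∀ i, A i i = 2) (i : Fin l) (x y : Fin l → ℤ) :
    bf A (refl A i x) (refl A i y) = bf A x y := by
  have hx : refl A i x = x - Pi.single i (pairing A i x) := refl_apply A i x
  have hy : refl A i y = y - Pi.single i (pairing A i y) := refl_apply A i y
  have h3 : pairing A i (Pi.single i (pairing A i y)) = 2 * pairing A i y := by
    unfold pairing
    rw [Finset.sum_eq_single i]
    · rw [Pi.single_eq_same, h2]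
    · intro j _ hj
      rw [Pi.single_eq_of_ne hj, mul_zero]
    · intro h
      exact absurd (Finset.mem_univ i) h
  rw [hx, hy, LinearMap.map_sub₂, map_sub, map_sub, bf_single_left, bf_single_left, h3,
    bf_comm hs x (Pi.single _ _), bf_single_left]
  ring

variable {W : Type*} [Group W] {M : CoxeterMatrix (Fin l)} (cs : CoxeterSystem M W) (h : IsCartan M A)

/-- **The form is invariant.** -/
theorem bf_rep (hs : ∀ i j, A i j = A j i) (h2 : ∀ i, A i i = 2) (v : W) (x y : Fin l → ℤ) :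
    bf A (rep cs h v x) (rep cs h v y) = bf A x y := by
  obtain ⟨L, rfl⟩ := cs.wordProd_surjective v
  induction L with
  | nil => rw [wordProd_nil, map_one]; rfl
  | cons i L ih =>
    rw [wordProd_cons, map_mul, rep_simple]
    show bf A (refl A i (rep cs h (cs.wordProd L) x)) (refl A i (rep cs h (cs.wordProd L) y)) = _
    rw [bf_refl hs h2, ih]

/-- the form on lists -/
def bl (Al : List (List ℤ)) (x y : List ℤ) : ℤ := dot x (Al.map (fun s => dot s y))

theorem bl_eq {Al : List (List ℤ)} (hA : MatList A Al) (hl : Al.length = l) {x y : List ℤ} (hx : x.length = l)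
    (hy : y.length = l) : bl Al x y = bf A (toFn l x) (toFn l y) := by
  unfold bl
  rw [dot_eq _ _ hx (by rw [List.length_map, hl]), bf_apply]
  refine Finset.sum_congr rfl fun i _ => ?_
  congr 1
  have h1 : toFn l (Al.map fun s => dot s y) i = dot (Al.getD i []) y := by
    show (Al.map fun s => dot s y).getD i.1 0 = _
    rw [List.getD_eq_getElem _ _ (by rw [List.length_map, hl]; exact i.2), List.getElem_map,
      List.getD_eq_getElem _ _ (by rw [hl]; exact i.2)]
  rw [h1, dot_eq _ _ (hA i).1 hy]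
  unfold pairing
  refine Finset.sum_congr rfl fun j _ => ?_
  rw [(hA i).2 j]
  rfl

end Form

/-! ### Gram values -/

section Gram

variable {l : ℕ} {A : Fin l → Fin l → ℤ} {W : Type*} [Group W] {M : CoxeterMatrix (Fin l)}
  (cs : CoxeterSystem M W) (h : IsCartan M A)

/-- the relations between the values `B(α, w^i α)` -/
theorem gram (hs : ∀ i j, A i j = A j i) (h2 : ∀ i, A i i = 2) (w : W) {c₀ c₁ c₂ c₃ : ℤ} {α : Fin l → ℤ}
    (hα : bf A α α = 2)
    (hΦ : Polynomial.aeval (rep cs h w) (ofL [c₀, c₁, c₂, c₃, 1]) α = 0) :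
    c₀ * bf A α ((rep cs h w ^ 1) α) + c₁ * 2 + c₂ * bf A α ((rep cs h w ^ 1) α) +
      c₃ * bf A α ((rep cs h w ^ 2) α) + bf A α ((rep cs h w ^ 3) α) = 0 ∧
    c₀ * bf A α ((rep cs h w ^ 2) α) + c₁ * bf A α ((rep cs h w ^ 1) α) + c₂ * 2 +
      c₃ * bf A α ((rep cs h w ^ 1) α) + bf A α ((rep cs h w ^ 2) α) = 0 := by
  set ω := rep cs h w with hω
  have h1 := hΦ
  simp only [ofL, map_add, map_mul, Polynomial.aeval_X, Polynomial.aeval_C, mul_zero, add_zero,
    LinearMap.add_apply, Module.End.mul_apply, Module.algebraMap_end_apply, map_smul, one_smul] at h1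
  have e2 : ∀ n, (ω ^ (n + 1)) α = ω ((ω ^ n) α) := by
    intro n
    rw [pow_succ']
    rfl
  have h3 : c₀ • (ω ^ 0) α + c₁ • (ω ^ 1) α + c₂ • (ω ^ 2) α + c₃ • (ω ^ 3) α + (ω ^ 4) α = 0 := by
    rw [e2 3, e2 2, e2 1, e2 0, pow_zero, ← h1]
    show c₀ • α + c₁ • ω α + c₂ • ω (ω α) + c₃ • ω (ω (ω α)) + ω (ω (ω (ω α))) = _
    abel
  have hinv : ∀ n m : ℕ, bf A ((ω ^ n) α) ((ω ^ (n + m)) α) = bf A α ((ω ^ m) α) := by
    intro n m
    have h4 : ∀ m, (ω ^ m) α = rep cs h (w ^ m) α := fun m => by rw [hω, map_pow]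
    rw [h4, h4, h4, pow_add, rep_mul_apply, bf_rep cs h hs h2]
  have hinv' : ∀ n m : ℕ, bf A ((ω ^ (n + m)) α) ((ω ^ n) α) = bf A α ((ω ^ m) α) := by
    intro n m
    rw [bf_comm hs, hinv]
  have hz : ∀ n, bf A ((ω ^ n) α) ((ω ^ n) α) = 2 := by
    intro n
    have h5 := hinv n 0
    rw [add_zero, pow_zero] at h5
    rw [h5]
    exact hα
  constructor
  · have h5 := congrArg (fun x => bf A ((ω ^ 1) α) x) h3
    simp only [map_add, map_smul, smul_eq_mul, map_zero] at h5
    rw [show bf A ((ω ^ 1) α) ((ω ^ 0) α) = bf A α ((ω ^ 1) α) from hinv' 0 1, hz,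
      show bf A ((ω ^ 1) α) ((ω ^ 2) α) = bf A α ((ω ^ 1) α) from hinv 1 1,
      show bf A ((ω ^ 1) α) ((ω ^ 3) α) = bf A α ((ω ^ 2) α) from hinv 1 2,
      show bf A ((ω ^ 1) α) ((ω ^ 4) α) = bf A α ((ω ^ 3) α) from hinv 1 3] at h5
    exact h5
  · have h5 := congrArg (fun x => bf A ((ω ^ 2) α) x) h3
    simp only [map_add, map_smul, smul_eq_mul, map_zero] at h5
    rw [show bf A ((ω ^ 2) α) ((ω ^ 0) α) = bf A α ((ω ^ 2) α) from hinv' 0 2, hz,
      show bf A ((ω ^ 2) α) ((ω ^ 1) α) = bf A α ((ω ^ 1) α) from hinv' 1 1,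
      show bf A ((ω ^ 2) α) ((ω ^ 3) α) = bf A α ((ω ^ 1) α) from hinv 2 1,
      show bf A ((ω ^ 2) α) ((ω ^ 4) α) = bf A α ((ω ^ 2) α) from hinv 2 2] at h5
    exact h5

/-- the value of the form on two roots is bounded -/
theorem bf_bound (hs : ∀ i j, A i j = A j i) (h2 : ∀ i, A i i = 2)
    (hb : ∀ (i : Fin l) (a : Fin l → ℤ), IsRoot cs h a → |pairing A i a| ≤ 2) {a b : Fin l → ℤ}
    (ha : IsRoot cs h a) (hb' : IsRoot cs h b) : |bf A a b| ≤ 2 := by
  obtain ⟨v, i, rfl⟩ := ha
  have h1 : bf A (rep cs h v (sr i)) b = pairing A i (rep cs h v⁻¹ b) := by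
    rw [← bf_rep cs h hs h2 v⁻¹, rep_inv_apply]
    show bf A (Pi.single i 1) _ = _
    rw [bf_single_left, one_mul]
  rw [h1]
  exact hb i _ (hb'.act _)

theorem bf_self (hs : ∀ i j, A i j = A j i) (h2 : ∀ i, A i i = 2) {a : Fin l → ℤ} (ha : IsRoot cs h a) :
    bf A a a = 2 := by
  obtain ⟨v, i, rfl⟩ := ha
  rw [bf_rep cs h hs h2]
  show bf A (Pi.single i 1) (Pi.single i 1) = _
  rw [bf_single_left, one_mul]
  unfold pairing
  rw [Finset.sum_eq_single i]
  · rw [Pi.single_eq_same, h2]; rfl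
  · intro j _ hj
    rw [Pi.single_eq_of_ne hj, mul_zero]
  · intro h
    exact absurd (Finset.mem_univ i) h

end Gram

/-! ### involutions -/

section Inv

/-- `A x` -/
def rowOf (Al : List (List ℤ)) (x : List ℤ) : List ℤ := Al.map (fun s => dot s x)

/-- `A (w^i α - w^{-i} α)`, `i = 1, 2, 3` -/
def rows1 {l : ℕ} (Al : List (List ℤ)) (L : List (Fin l)) (k : ℕ) (α : List ℤ) : List (List ℤ) :=
  [1, 2, 3].map fun i => rowOf Al (addV (acn Al L (k * i) α) ((acn Al L.reverse (k * i) α).map fun a => -1 * a))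

/-- `(A w^{-i} α₂, A w^i α₁)`, `i = 0, 1, 2, 3` -/
def rows2 {l : ℕ} (Al : List (List ℤ)) (L : List (Fin l)) (k : ℕ) (α₁ α₂ : List ℤ) : List (List ℤ × List ℤ) :=
  [0, 1, 2, 3].map fun i => (rowOf Al (acn Al L.reverse (k * i) α₂), rowOf Al (acn Al L (k * i) α₁))

/-- `B(w^i α₁, α₂)`, `i = 0, 1, 2, 3` -/
def vals {l : ℕ} (Al : List (List ℤ)) (L : List (Fin l)) (k : ℕ) (α₁ α₂ : List ℤ) : List (ℕ × ℤ) :=
  [0, 1, 2, 3].map fun i => (k * i, bl Al (acn Al L (k * i) α₁) α₂)

/-- the pairs of images -/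
def prs {l : ℕ} (Al : List (List ℤ)) (L : List (Fin l)) (R : List (List ℤ)) (r₁ r₂ : List (List ℤ))
    (pq : List (List ℤ × List ℤ)) (T : List (ℕ × ℤ)) (α₁ α₂ : List ℤ) : List (List ℤ × List ℤ) :=
  ((((R.filter fun β => r₁.all fun s => dot s β == 0) ×ˢ (R.filter fun β => r₂.all fun s => dot s β == 0)).filter
    fun b => pq.all fun s => dot s.1 b.1 == dot s.2 b.2).filter
    fun b => T.all fun m => bl Al (acn Al L m.1 b.1) b.2 == m.2).filter fun b => !decide (b = (α₁, α₂))

variable {l : ℕ} {A : Fin l → Fin l → ℤ} {Al : List (List ℤ)} {W : Type*} [Group W] {M : CoxeterMatrix (Fin l)}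
  (cs : CoxeterSystem M W) (h : IsCartan M A)

theorem commute_aeval {V : Type*} [AddCommGroup V] {f g : Module.End ℤ V} (hfg : ∀ x, f (g x) = g (f x))
    (P : Polynomial ℤ) (x : V) : f (Polynomial.aeval g P x) = Polynomial.aeval g P (f x) := by
  induction P using Polynomial.induction_on' with
  | add p q hp hq =>
    rw [map_add, LinearMap.add_apply, LinearMap.add_apply, map_add, hp, hq]
  | monomial n a =>
    rw [Polynomial.aeval_monomial]
    show f (algebraMap ℤ (Module.End ℤ V) a ((g ^ n) x)) = algebraMap ℤ (Module.End ℤ V) a ((g ^ n) (f x))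
    rw [Module.algebraMap_end_apply, Module.algebraMap_end_apply, map_smul]
    congr 1
    induction n with
    | zero => rfl
    | succ n ih =>
      rw [pow_succ']
      show f (g ((g ^ n) x)) = g ((g ^ n) (f x))
      rw [hfg, ih]

theorem dot_rowOf (hA : MatList A Al) (hl : Al.length = l) (hs : ∀ i j, A i j = A j i) {x y : List ℤ}
    (hx : x.length = l) (hy : y.length = l) : dot (rowOf Al x) y = bf A (toFn l x) (toFn l y) := by
  rw [bf_comm hs, ← bl_eq hA hl hy hx, bl, dot_eq _ _ (by rw [rowOf, List.length_map, hl]) hy,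
    dot_eq _ _ hy (by rw [List.length_map, hl])]
  exact Finset.sum_congr rfl fun j _ => mul_comm _ _

/-- **Few involutions commute with `w`.** -/
theorem exists_eq (hA : MatList A Al) (hl : Al.length = l) (hs : ∀ i j, A i j = A j i) (h2 : ∀ i, A i i = 2)
    (L : List (Fin l)) (k : ℕ) (R : List (List ℤ)) (hRl : ∀ x ∈ R, x.length = l)
    (hR : ∀ a, IsRoot cs h a → ∃ x ∈ R, toFn l x = a) {α₁ α₂ : List ℤ} (h1l : α₁.length = l) (h2l : α₂.length = l)
    (hr1 : IsRoot cs h (toFn l α₁)) (hr2 : IsRoot cs h (toFn l α₂)) (c d : Fin l → List ℤ)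
    (hcd : ∀ j : Fin l, bas l j = addV (horner Al L k α₁ (c j)) (horner Al L k α₂ (d j)))
    {r₁ r₂ : List (List ℤ)} (hr₁ : r₁ = rows1 Al L k α₁) (hr₂ : r₂ = rows1 Al L k α₂)
    {pq : List (List ℤ × List ℤ)} (hpq : pq = rows2 Al L k α₁ α₂) {T : List (ℕ × ℤ)} (hT : T = vals Al L k α₁ α₂)
    {n : ℕ} (hn : (prs Al L R r₁ r₂ pq T α₁ α₂).length < n) (g : Fin n → W)
    (hg : ∀ j, g j * g j = 1 ∧ g j * cs.wordProd L ^ k = cs.wordProd L ^ k * g j ∧ g j ≠ 1) :
    ∃ i j, i < j ∧ g i = g j := by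
  subst hr₁ hr₂ hpq hT
  set w := cs.wordProd L ^ k with hw
  -- the action on the lattice
  have hcomm : ∀ (v : W), v * w = w * v → ∀ x, rep cs h v (rep cs h w x) = rep cs h w (rep cs h v x) := by
    intro v hv x
    rw [← rep_mul_apply, hv, rep_mul_apply]
  have hpw : ∀ (i : ℕ) (x : List ℤ), x.length = l → toFn l (acn Al L (k * i) x) = rep cs h (w ^ i) (toFn l x) := by
    intro i x hx
    rw [toFn_acn cs h hA L _ _ hx, hw, ← pow_mul, map_pow]
  have hpw' : ∀ (i : ℕ) (x : List ℤ), x.length = l →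
      toFn l (acn Al L.reverse (k * i) x) = rep cs h (w ^ i)⁻¹ (toFn l x) := by
    intro i x hx
    rw [toFn_acn cs h hA L.reverse _ _ hx, wordProd_reverse, hw, ← pow_mul, ← map_pow, inv_pow]
  have hsame : ∀ v v' : W, v * w = w * v → v' * w = w * v' → rep cs h v (toFn l α₁) = rep cs h v' (toFn l α₁) →
      rep cs h v (toFn l α₂) = rep cs h v' (toFn l α₂) → v = v' := by
    intro v v' hv hv' e1 e2
    have h3 : ∀ j : Fin l, rep cs h v (sr j) = rep cs h v' (sr j) := by
      intro j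
      have h4 : (sr j : Fin l → ℤ) = toFn l (bas l j) := (toFn_bas j).symm
      rw [h4, hcd j, toFn_addV _ _ (length_horner L k α₁ h1l _) (length_horner L k α₂ h2l _),
        toFn_horner cs h hA L k α₁ h1l, toFn_horner cs h hA L k α₂ h2l, map_add, map_add,
        commute_aeval (hcomm v hv), commute_aeval (hcomm v hv), commute_aeval (hcomm v' hv'),
        commute_aeval (hcomm v' hv'), e1, e2]
    have h5 : v'⁻¹ * v = 1 := by
      refine ChevalleyStructure.CoxeterGeom.eq_one_of_fix cs h _ fun i => ?_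
      show rep cs h (v'⁻¹ * v) (sr i) = sr i
      rw [rep_mul_apply, h3, rep_inv_apply]
    rw [inv_mul_eq_one] at h5
    exact h5.symm
  -- the images
  have himg : ∀ j, ∃ b ∈ prs Al L R (rows1 Al L k α₁) (rows1 Al L k α₂) (rows2 Al L k α₁ α₂) (vals Al L k α₁ α₂) α₁ α₂,
      toFn l b.1 = rep cs h (g j) (toFn l α₁) ∧ toFn l b.2 = rep cs h (g j) (toFn l α₂) := by
    intro j
    obtain ⟨hg1, hg2, hg3⟩ := hg j
    set v := g j with hv
    obtain ⟨β₁, hβ₁, e1⟩ := hR _ (hr1.act v)
    obtain ⟨β₂, hβ₂, e2⟩ := hR _ (hr2.act v)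
    have l1 := hRl _ hβ₁
    have l2 := hRl _ hβ₂
    have hinvo : ∀ x, rep cs h v (rep cs h v x) = x := by
      intro x
      rw [← rep_mul_apply, hg1, map_one]
      rfl
    have hvw : ∀ i x, rep cs h (w ^ i) (rep cs h v x) = rep cs h v (rep cs h (w ^ i) x) := by
      intro i x
      have hc : Commute v w := hg2
      rw [← rep_mul_apply, ← rep_mul_apply, (hc.pow_right i).eq]
    have hinvf := bf_rep cs h hs h2
    -- `B(w^i α, v β) = B(w^{-i} β, v α)`
    have key0 : ∀ (i : ℕ) (x y : Fin l → ℤ), bf A (rep cs h (w ^ i) x) (rep cs h v y) =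
        bf A (rep cs h (w ^ i)⁻¹ y) (rep cs h v x) := by
      intro i x y
      rw [← hinvf v (rep cs h (w ^ i) x), hinvo, ← hvw, ← hinvf (w ^ i)⁻¹, rep_inv_apply, bf_comm hs]
    have key1 : ∀ (α β : List ℤ), α.length = l → β.length = l → toFn l β = rep cs h v (toFn l α) →
        ((rows1 Al L k α).all fun s => dot s β == 0) = true := by
      intro α β hα hβ e
      rw [List.all_eq_true]
      intro s hs'
      obtain ⟨i, -, rfl⟩ := List.mem_map.1 hs'
      have hl1 : (acn Al L (k * i) α).length = l := by rw [length_acn, hα]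
      have hl2 : ((acn Al L.reverse (k * i) α).map fun a => -1 * a).length = l := by
        rw [List.length_map, length_acn, hα]
      rw [beq_iff_eq, dot_rowOf hA hl hs (by rw [length_addV _ _ (by rw [hl1, hl2]), hl2]) hβ,
        toFn_addV _ _ hl1 hl2, toFn_smul, hpw i α hα, hpw' i α hα, e, map_add, LinearMap.add_apply, key0, map_smul,
        LinearMap.smul_apply]
      simp
    have key2 : ((rows2 Al L k α₁ α₂).all fun s => dot s.1 β₁ == dot s.2 β₂) = true := by
      rw [List.all_eq_true]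
      intro s hs'
      obtain ⟨i, -, rfl⟩ := List.mem_map.1 hs'
      rw [beq_iff_eq, dot_rowOf hA hl hs (by rw [length_acn, h2l]) l1, dot_rowOf hA hl hs (by rw [length_acn, h1l]) l2,
        hpw' i α₂ h2l, hpw i α₁ h1l, e1, e2, key0]
    have key3 : ((vals Al L k α₁ α₂).all fun m => bl Al (acn Al L m.1 β₁) β₂ == m.2) = true := by
      rw [List.all_eq_true]
      intro s hs'
      obtain ⟨i, -, rfl⟩ := List.mem_map.1 hs'
      rw [beq_iff_eq, bl_eq hA hl (by rw [length_acn, l1]) l2, bl_eq hA hl (by rw [length_acn, h1l]) h2l,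
        hpw i β₁ l1, hpw i α₁ h1l, e1, e2, hvw, hinvf]
    refine ⟨(β₁, β₂), ?_, e1, e2⟩
    unfold prs
    rw [List.mem_filter, List.mem_filter, List.mem_filter]
    refine ⟨⟨⟨?_, key2⟩, key3⟩, ?_⟩
    · show (β₁, β₂) ∈ List.product _ _
      rw [List.pair_mem_product]
      exact ⟨List.mem_filter.2 ⟨hβ₁, key1 _ _ h1l l1 e1⟩, List.mem_filter.2 ⟨hβ₂, key1 _ _ h2l l2 e2⟩⟩
    · rw [Bool.not_eq_true', decide_eq_false_iff_not]
      intro h3
      have h4 : β₁ = α₁ := congrArg Prod.fst h3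
      have h5 : β₂ = α₂ := congrArg Prod.snd h3
      apply hg3
      refine hsame v 1 hg2 (by rw [one_mul, mul_one]) ?_ ?_
      · rw [map_one, ← e1, h4]; rfl
      · rw [map_one, ← e2, h5]; rfl
  choose b hb h3 h4 using himg
  have hcard : (prs Al L R (rows1 Al L k α₁) (rows1 Al L k α₂) (rows2 Al L k α₁ α₂) (vals Al L k α₁ α₂)
      α₁ α₂).toFinset.card < (Finset.univ : Finset (Fin n)).card := by
    rw [Finset.card_univ, Fintype.card_fin]
    exact lt_of_le_of_lt (List.toFinset_card_le _) hn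
  obtain ⟨i, -, j, -, hij, e⟩ := Finset.exists_ne_map_eq_of_card_lt_of_maps_to hcard (f := b)
    (fun j _ => by rw [Finset.mem_coe, List.mem_toFinset]; exact hb j)
  have hgij : g i = g j := by
    refine hsame _ _ (hg i).2.1 (hg j).2.1 ?_ ?_
    · rw [← h3, ← h3, e]
    · rw [← h4, ← h4, e]
  rcases lt_or_gt_of_ne hij with h5 | h5
  · exact ⟨i, j, h5, hgij⟩
  · exact ⟨j, i, h5, hgij.symm⟩

end Inv

end Cfsg.Agent.H790.EP.Lat8
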