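import Cfsg.Agent.H501.TwReal
import Cfsg.Agent.H130.TorEmb

/-!
# Normalizers of finite subgroups of the torus (helper790)

* `exists_rp_of_normalizes` : an element of `D.group k` which normalises a finite subgroup `S` of the torus on which no
  root vanishes represents an element of the Weyl group.
* `comm_of_twist` : if `g σ(y) g⁻¹ = y` then the Weyl group elements of `g` and `y` commute.
-/

set_option autoImplicit false
set_option linter.unusedSectionVars false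

namespace Cfsg.Agent.H790.EP.NrmTor

open CoxeterSystem Cfsg Cfsg.Lie Cfsg.Lie.ChevalleyDatum
open Cfsg.Agent.ChevalleyStructure Cfsg.Agent.ChevalleyStructure.Elts Cfsg.Agent.ChevalleyStructure.CoxeterGeom
  Cfsg.Agent.ChevalleyStructure.CoxeterGeomTypes Cfsg.Agent.ChevalleyStructure.NPerm
open Cfsg.Agent.Tits.Roots Cfsg.Agent.Tits.Core Cfsg.Agent.Nodes Cfsg.Agent.Nodes.Reps Cfsg.Agent.Nodes.BNOf
  Cfsg.Agent.Nodes.RGDChev Cfsg.Agent.Nodes.Bruhat
open Cfsg.Agent.KFacts.RgdField Cfsg.Agent.KFacts.RgdChevCoord Cfsg.Agent.BpExc.TorCent Cfsg.Agent.BpExc.TorChev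
open Cfsg.Agent.GpExc.Field Cfsg.Agent.BpExc.Tow Cfsg.Agent.BpExc.TowChev Cfsg.Agent.BpExc.Fr
  Cfsg.Agent.BpExc.LangFr Cfsg.Agent.LangThm Cfsg.Agent.BpExc Cfsg.Agent.H129.TorusChar Cfsg.Agent.H129.TorusCent
  Cfsg.Agent.H129.TorusTw Cfsg.Agent.H129.TorusMain Cfsg.Agent.H720.TorusReal

universe u

variable {D : ChevalleyDatum} {l : ℕ} {M : CoxeterMatrix (Fin l)} (hp : IsType D l M) {k : Type u} [Field k]
  {W : Type*} [Group W] (cs : CoxeterSystem M W)

/-- An element normalising a finite subgroup of the torus on which no root vanishes represents an element of `W`. -/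
theorem exists_rp_of_normalizes [Finite W] (hk : LocFin k) (p : ℕ) [Fact p.Prime] [CharP k p]
    (hN : NSys M (TT D k) (nc hp k)) {S : Subgroup ↥(D.group k)} [Finite S] (hS : S ≤ TT D k)
    (hroot : ∀ a, IsRoot cs hp.isCartan a → ∃ s ∈ S, ch hp a s ≠ 1) {y : ↥(D.group k)}
    (hy : y ∈ Subgroup.normalizer (S : Set ↥(D.group k))) : ∃ w : W, Rp cs hN w y := by
  have H := tow hp cs hk p
  have C := coordsL hp cs hk p
  have hyG : y ∈ GG cs hp.isCartan (TL (Tj hp (k := k))) (XL (Xj hp)) := by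
    rw [GG_eq_top hp cs hk]; exact Subgroup.mem_top y
  obtain ⟨j1, h1⟩ := H.exists_level (S := fun j => ((Tj hp (k := k) j : Subgroup ↥(D.group k)) : Set _))
    (fun a b h => H.monoT h) (f := fun s : ↥S => (s : ↥(D.group k))) (fun s => by
      have h2 := hS s.2
      rw [← TL_eq hp hk] at h2
      exact H.mem_TL.1 h2)
  obtain ⟨j2, h2⟩ := H.mem_GG.1 hyG
  obtain ⟨j, b1, b2⟩ := H.dir j1 j2
  obtain ⟨w, hw⟩ := (Cfsg.Agent.Nodes.Bruhat.mem_GG (H.rgd j)).1 (H.mono_GG b2 h2)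
  obtain ⟨u, hu, k', hk', v, hv, rfl⟩ := Cfsg.Agent.Nodes.NormalForm.exists_normal_form (H.rgd j) hw
  have hSj : (S : Set ↥(D.group k)) ⊆ Tj hp (k := k) j := fun s hs => H.monoT b1 (h1 ⟨s, hs⟩)
  have key : ∀ s ∈ S, (u * k' * v) * s * (u * k' * v)⁻¹ * u = u * ((u * k' * v) * s * (u * k' * v)⁻¹) ∧
      s * v = v * s := by
    intro s hs
    have hs' : (u * k' * v) * s * (u * k' * v)⁻¹ ∈ S := (Subgroup.mem_normalizer_iff.1 hy s).1 hs
    have h3 := conj_form' (H.rgd j) (hSj hs) (hSj hs') hu hk' hv (by group)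
    exact ⟨h3.1, h3.2.2⟩
  have huC : u ∈ Subgroup.centralizer (S : Set ↥(D.group k)) := by
    rw [Subgroup.mem_centralizer_iff]
    intro s hs
    obtain ⟨s', hs', e⟩ : ∃ s' ∈ S, (u * k' * v) * s' * (u * k' * v)⁻¹ = s := by
      refine ⟨(u * k' * v)⁻¹ * s * (u * k' * v), ?_, by group⟩
      rw [Subgroup.mem_normalizer_iff.1 hy]
      have : u * k' * v * ((u * k' * v)⁻¹ * s * (u * k' * v)) * (u * k' * v)⁻¹ = s := by group
      rw [this]; exact hs
    rw [← e]
    exact (key s' hs').1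
  have hvC : v ∈ Subgroup.centralizer (S : Set ↥(D.group k)) := by
    rw [Subgroup.mem_centralizer_iff]
    exact fun s hs => (key s hs).2
  -- the unipotent part of the centraliser is trivial
  have htriv : ∀ x ∈ RGD.Sup (Xj hp (k := k) j) (RGD.Pos cs hp.isCartan), x ∈ Subgroup.centralizer (S : Set _) →
      x = 1 := by
    intro x hx hxC
    have h3 : x ∈ RGD.Sup (Xj hp (k := k) j) (RGD.Pos cs hp.isCartan) ⊓ Subgroup.centralizer (S : Set _) :=
      ⟨hx, hxC⟩
    rw [Cfsg.Agent.Nodes.NormalForm.centralizer_U (H.rgd j) hSj] at h3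
    have h4 : RGD.Sup (fun x => Xj hp (k := k) j x ⊓ Subgroup.centralizer (S : Set ↥(D.group k)))
        (RGD.Pos cs hp.isCartan) ≤ ⊥ := by
      refine RGD.Sup_le fun a ha => ?_
      rintro z ⟨hz1, hz2⟩
      rw [Subgroup.mem_bot]
      by_contra hz
      obtain ⟨s, hs, hsa⟩ := hroot a ha.1
      have hzX : z ∈ XX D l k a := by
        have := le_XL (X := Xj hp (k := k)) j a hz1
        rwa [XL_eq hp hk] at this
      have h5 := mem_Sx_of_centralizer (x := s) C (hS hs) ha.1 hzX hz (by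
        rw [Subgroup.mem_centralizer_singleton_iff]
        exact ((Subgroup.mem_centralizer_iff.1 hz2) s hs).symm)
      exact hsa h5.2
    exact Subgroup.mem_bot.1 (h4 h3)
  have hu1 : u = 1 := htriv u hu huC
  have hv1 : v = 1 := htriv v (RGD.Sup_mono (S := Cfsg.Agent.Nodes.NormalForm.NW cs hp.isCartan w) (S' := RGD.Pos cs hp.isCartan)
    (fun x hx => ⟨hx.1, hx.2.1⟩) hv) hvC
  refine ⟨w, ?_⟩
  rw [hu1, hv1, one_mul, mul_one]
  have hk2 := H.rp_up hk'
  have key2 : ∀ (T : Subgroup ↥(D.group k)) (h1 : NSys M T (nc hp k)) (h2 : T = TT D k), Rp cs h1 w k' →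
      Rp cs hN w k' := by
    intro T h1 h2 h3
    subst h2
    exact h3
  exact key2 _ _ (TL_eq hp hk) hk2

/-- If `g σ(y) g⁻¹ = y`, the Weyl group elements of `g` and `y` commute (`σ` acting trivially on the lattice). -/
theorem comm_of_twist [IsAlgClosed k] [Finite W] (hk : LocFin k) {p e : ℕ} [Fact p.Prime] [CharP k p]
    {σ : MulAut ↥(D.group k)} (hσ : IsFrob p e σ)
    (F : Fr cs hp.isCartan (TT D k) (XX D l k) σ (AddEquiv.refl (Fin l → ℤ))) {d' : ℕ} {B' : Fin l → Fin l → ℤ}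
    (hB : InvC D l d' B') (hd' : d' ≠ 0) {hN : NSys M (TT D k) (nc hp k)} {w v : W} {g y : ↥(D.group k)}
    (hg : Rp cs hN w g) (hy : Rp cs hN v y) (hgy : g * σ y * g⁻¹ = y) : v * w = w * v := by
  obtain ⟨τ, hτ, h1, h2⟩ := exists_regular (k := k) hp cs p hB hd'
  -- `τ = y (g σ(t) g⁻¹) y⁻¹`
  have hgN := fun t => Subgroup.mem_normalizer_iff.1 hg.mem_normalizer t
  have hyN := fun t => Subgroup.mem_normalizer_iff.1 hy.mem_normalizer t
  obtain ⟨t, ht, ee⟩ : ∃ t ∈ TT D k, y * (g * σ t * g⁻¹) * y⁻¹ = τ := by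
    refine ⟨σ⁻¹ (g⁻¹ * (y⁻¹ * τ * y) * g), ?_, ?_⟩
    · rw [← F.tor, MulAut.apply_inv_self, hgN, hyN]
      have : y * (g * (g⁻¹ * (y⁻¹ * τ * y) * g) * g⁻¹) * y⁻¹ = τ := by group
      rw [this]; exact hτ
    · rw [MulAut.apply_inv_self]; group
  have hσt : σ t ∈ TT D k := (F.tor t).2 ht
  have hgt : g * σ t * g⁻¹ ∈ TT D k := (hgN _).1 hσt
  have hyt : y * t * y⁻¹ ∈ TT D k := (hyN _).1 ht
  have e2 : g * σ (y * t * y⁻¹) * g⁻¹ = τ := by
    rw [← ee, map_mul, map_mul, map_inv]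
    have h3 : y * g = g * σ y := by
      conv_lhs => rw [← hgy]
      group
    calc g * (σ y * σ t * (σ y)⁻¹) * g⁻¹ = (g * σ y) * σ t * (g * σ y)⁻¹ := by group
      _ = (y * g) * σ t * (y * g)⁻¹ := by rw [h3]
      _ = _ := by group
  have f1 : ∀ x, cX hp τ (rep cs hp.isCartan (v * w) x) = cX hp t x ^ p ^ e := by
    intro x
    rw [← ee, map_mul (rep cs hp.isCartan)]
    show cX hp _ (rep cs hp.isCartan v (rep cs hp.isCartan w x)) = _
    rw [cX_rp hp cs hk p hy hgt, cX_rp hp cs hk p hg hσt]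
    exact cX_sigma hp cs hσ F ht x
  have f2 : ∀ x, cX hp τ (rep cs hp.isCartan (w * v) x) = cX hp t x ^ p ^ e := by
    intro x
    rw [← e2, map_mul (rep cs hp.isCartan)]
    show cX hp _ (rep cs hp.isCartan w (rep cs hp.isCartan v x)) = _
    rw [cX_rp hp cs hk p hg ((F.tor _).2 hyt)]
    have h3 := cX_sigma hp cs hσ F hyt (rep cs hp.isCartan v x)
    rw [cX_rp hp cs hk p hy ht] at h3
    exact h3
  have h3 := h2 (v * w * (w * v)⁻¹) (fun a _ => by
    have h4 := f1 (rep cs hp.isCartan (w * v)⁻¹ a)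
    have h5 := f2 (rep cs hp.isCartan (w * v)⁻¹ a)
    rw [rep_apply_inv] at h5
    rw [map_mul (rep cs hp.isCartan)]
    show cX hp τ (rep cs hp.isCartan (v * w) (rep cs hp.isCartan (w * v)⁻¹ a)) = _
    rw [h4, h5])
  exact mul_inv_eq_one.1 h3

end Cfsg.Agent.H790.EP.NrmTor
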